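import Cfsg.Agent.H146.KW.ToolsTwo

/-!
# Frame argument for alternating groups (S4243)
-/

set_option autoImplicit false
set_option linter.unusedSectionVars false

open Equiv Equiv.Perm Subgroup

namespace Cfsg.Agent.H146.KW.Alt

/-- points: `a` blocks of size `p` and `b` further points -/
abbrev Pt (a p b : ℕ) := (Fin a × Fin p) ⊕ Fin b

variable {a p b : ℕ}

/-- `p`-permutations acting on the blocks. -/
def block (a p b : ℕ) : (Fin a → Perm (Fin p)) →* Perm (Pt a p b) where
  toFun f := Equiv.sumCongr (Equiv.prodCongrRight f) (Equiv.refl _)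
  map_one' := by
    ext x
    rcases x with ⟨i, x⟩ | x <;> simp
  map_mul' f g := by
    ext x
    rcases x with ⟨i, x⟩ | x <;> simp

@[simp] theorem block_inl (f : Fin a → Perm (Fin p)) (i : Fin a) (x : Fin p) :
    block a p b f (Sum.inl (i, x)) = Sum.inl (i, f i x) := rfl

@[simp] theorem block_inr (f : Fin a → Perm (Fin p)) (x : Fin b) :
    block a p b f (Sum.inr x) = Sum.inr x := rfl

/-- permutations of the blocks. -/
def top (a p b : ℕ) : Perm (Fin a) →* Perm (Pt a p b) where
  toFun σ := Equiv.sumCongr (Equiv.prodCongr σ (Equiv.refl _)) (Equiv.refl _)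
  map_one' := by
    ext x
    rcases x with ⟨i, x⟩ | x <;> simp
  map_mul' f g := by
    ext x
    rcases x with ⟨i, x⟩ | x <;> simp

@[simp] theorem top_inl (σ : Perm (Fin a)) (i : Fin a) (x : Fin p) :
    top a p b σ (Sum.inl (i, x)) = Sum.inl (σ i, x) := rfl

@[simp] theorem top_inr (σ : Perm (Fin a)) (x : Fin b) :
    top a p b σ (Sum.inr x) = Sum.inr x := rfl

theorem top_mul_block (σ : Perm (Fin a)) (f : Fin a → Perm (Fin p)) :
    top a p b σ * block a p b f = block a p b (fun i => f (σ⁻¹ i)) * top a p b σ := by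
  ext x
  rcases x with ⟨i, x⟩ | x <;> simp

/-- The group `M` of all `block f * top σ`. -/
def M (a p b : ℕ) : Subgroup (Perm (Pt a p b)) where
  carrier := {x | ∃ f σ, x = block a p b f * top a p b σ}
  one_mem' := ⟨1, 1, by simp⟩
  mul_mem' := by
    rintro _ _ ⟨f, σ, rfl⟩ ⟨g, τ, rfl⟩
    refine ⟨f * fun i => g (σ⁻¹ i), σ * τ, ?_⟩
    rw [map_mul, map_mul]
    calc block a p b f * top a p b σ * (block a p b g * top a p b τ)
        = block a p b f * (top a p b σ * block a p b g) * top a p b τ := by group
      _ = _ := by rw [top_mul_block]; group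
  inv_mem' := by
    rintro _ ⟨f, σ, rfl⟩
    refine ⟨fun i => f⁻¹ (σ i), σ⁻¹, ?_⟩
    rw [mul_inv_rev, ← map_inv, ← map_inv, top_mul_block, inv_inv]

theorem mem_M {x : Perm (Pt a p b)} : x ∈ M a p b ↔ ∃ f σ, x = block a p b f * top a p b σ :=
  Iff.rfl

theorem decomp_inj (hp : 0 < p) {f g : Fin a → Perm (Fin p)} {σ τ : Perm (Fin a)}
    (h : block a p b f * top a p b σ = block a p b g * top a p b τ) : f = g ∧ σ = τ := by
  have key : ∀ i x, (σ i, f (σ i) x) = (τ i, g (τ i) x) := by
    intro i x
    have := congrArg (fun t => t (Sum.inl (i, x))) h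
    simpa using this
  have hσ : σ = τ := by
    ext i
    have := congrArg Prod.fst (key i ⟨0, hp⟩)
    exact congrArg Fin.val this
  subst hσ
  refine ⟨?_, rfl⟩
  funext i
  ext x
  have := congrArg Prod.snd (key (σ⁻¹ i) x)
  have e : σ (σ⁻¹ i) = i := σ.apply_symm_apply i
  simp only [e] at this
  exact congrArg Fin.val this

theorem card_M (hp : 0 < p) : Nat.card (M a p b) = (p.factorial) ^ a * a.factorial := by
  have e : (Fin a → Perm (Fin p)) × Perm (Fin a) ≃ M a p b :=
    Equiv.ofBijective (fun x => ⟨block a p b x.1 * top a p b x.2, x.1, x.2, rfl⟩) (by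
      constructor
      · rintro ⟨f, σ⟩ ⟨g, τ⟩ h
        have := decomp_inj hp (congrArg Subtype.val h)
        exact Prod.ext this.1 this.2
      · rintro ⟨_, f, σ, rfl⟩
        exact ⟨(f, σ), rfl⟩)
  rw [← Nat.card_congr e, Nat.card_prod, Nat.card_pi]
  simp [Nat.card_eq_fintype_card, Fintype.card_perm]

theorem not_dvd_index_M [hp : Fact p.Prime] (hb : b < p) : ¬ p ∣ (M a p b).index := by
  have h1 := Subgroup.card_mul_index (M a p b)
  rw [card_M hp.out.pos] at h1
  have h2 : Nat.card (Perm (Pt a p b)) = (p * a + b).factorial := by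
    rw [Nat.card_eq_fintype_card, Fintype.card_perm]
    congr 1
    simp [Pt, mul_comm]
  rw [h2] at h1
  have hne : (M a p b).index ≠ 0 := Subgroup.index_ne_zero_of_finite
  have h3 := congrArg (padicValNat p) h1
  rw [padicValNat.mul (mul_ne_zero (pow_ne_zero _ (Nat.factorial_ne_zero _))
    (Nat.factorial_ne_zero _)) hne,
    padicValNat.mul (pow_ne_zero _ (Nat.factorial_ne_zero _)) (Nat.factorial_ne_zero _),
    padicValNat.pow, padicValNat_factorial_mul_add _ hb,
    padicValNat_factorial_mul] at h3
  have h4 : padicValNat p p.factorial = 1 := by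
    have := padicValNat_factorial_mul (p := p) 1
    simpa using this
  rw [h4] at h3
  have h5 : padicValNat p (M a p b).index = 0 := by omega
  intro hd
  have := (padicValNat.eq_zero_iff.mp h5)
  rcases this with h | h | h
  · exact hp.out.one_lt.ne' h
  · exact hne h
  · exact h hd

/-- The base group. -/
def base (a p b : ℕ) : (Fin a → alternatingGroup (Fin p)) →* Perm (Pt a p b) :=
  (block a p b).comp (MonoidHom.pi fun i =>
    (alternatingGroup (Fin p)).subtype.comp (Pi.evalMonoidHom _ i))

@[simp] theorem base_apply (f : Fin a → alternatingGroup (Fin p)) :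
    base a p b f = block a p b (fun i => (f i : Perm (Fin p))) := rfl

theorem range_base_le : (base a p b).range ≤ M a p b := by
  rintro _ ⟨f, rfl⟩
  exact ⟨fun i => f i, 1, by simp⟩

theorem M_le_normalizer : M a p b ≤ Subgroup.normalizer (base a p b).range := by
  have key : ∀ x ∈ M a p b, ∀ y ∈ (base a p b).range, x * y * x⁻¹ ∈ (base a p b).range := by
    rintro _ ⟨f, σ, rfl⟩ _ ⟨g, rfl⟩
    refine ⟨fun i => ⟨f i * g (σ⁻¹ i) * (f i)⁻¹, ?_⟩, ?_⟩
    · have : (alternatingGroup (Fin p)).Normal := inferInstance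
      exact this.conj_mem _ (g (σ⁻¹ i)).2 _
    · rw [base_apply, base_apply]
      have h1 : (fun i => f i * (g (σ⁻¹ i) : Perm (Fin p)) * (f i)⁻¹) =
          f * (fun i => (g (σ⁻¹ i) : Perm (Fin p))) * f⁻¹ := rfl
      simp only
      rw [h1, map_mul, map_mul, map_inv]
      have h2 := top_mul_block (b := b) σ (fun i => (g i : Perm (Fin p)))
      calc block a p b f * block a p b (fun i => (g (σ⁻¹ i) : Perm (Fin p))) * (block a p b f)⁻¹
          = block a p b f * (block a p b (fun i => (g (σ⁻¹ i) : Perm (Fin p))) * top a p b σ) *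
            (top a p b σ)⁻¹ * (block a p b f)⁻¹ := by group
        _ = _ := by rw [← h2]; group
  intro x hx
  rw [Subgroup.mem_normalizer_iff]
  intro y
  constructor
  · exact key x hx y
  · intro hy
    have := key x⁻¹ ((M a p b).inv_mem hx) _ hy
    simpa [mul_assoc] using this

theorem not_sq_dvd_card [hp : Fact p.Prime] (h5 : 5 ≤ p) :
    ¬ p ^ 2 ∣ Nat.card (alternatingGroup (Fin p)) := by
  have hnt : Nontrivial (Fin p) := Fin.nontrivial_iff_two_le.mpr (by omega)
  have h1 : 2 * Nat.card (alternatingGroup (Fin p)) = p.factorial := by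
    rw [two_mul_nat_card_alternatingGroup, Nat.card_eq_fintype_card, Fintype.card_perm,
      Fintype.card_fin]
  intro hd
  have h2 : p ^ 2 ∣ p.factorial := h1 ▸ dvd_mul_of_dvd_right hd 2
  have h3 : padicValNat p p.factorial = 1 := by
    have := padicValNat_factorial_mul (p := p) 1
    simpa using this
  have h4 := (padicValNat_dvd_iff_le (Nat.factorial_ne_zero p)).mp h2
  omega

theorem dvd_card [hp : Fact p.Prime] (h5 : 5 ≤ p) :
    p ∣ Nat.card (alternatingGroup (Fin p)) := by
  have hnt : Nontrivial (Fin p) := Fin.nontrivial_iff_two_le.mpr (by omega)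
  have h1 : 2 * Nat.card (alternatingGroup (Fin p)) = p.factorial := by
    rw [two_mul_nat_card_alternatingGroup, Nat.card_eq_fintype_card, Fintype.card_perm,
      Fintype.card_fin]
  have h2 : p ∣ 2 * Nat.card (alternatingGroup (Fin p)) := h1 ▸ Nat.dvd_factorial hp.out.pos le_rfl
  rcases (hp.out.dvd_mul).mp h2 with h | h
  · have := Nat.le_of_dvd (by norm_num) h; omega
  · exact h

/-- The frame argument. -/
theorem base_mem [hp : Fact p.Prime] (h5 : 5 ≤ p) (hb : b < p) {K : Subgroup (Perm (Pt a p b))}
    (hK : PSub p K) {f : Fin a → alternatingGroup (Fin p)} (hf : base a p b f ∈ K)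
    (hfp : f ^ p = 1) (i : Fin a) (hi : f i ≠ 1) (x : alternatingGroup (Fin p)) :
    base a p b (Pi.mulSingle i x) ∈ K := by
  have h1 := hK.comap_frame (base a p b) range_base_le M_le_normalizer (not_dvd_index_M hb)
  have hs : IsSimpleGroup (alternatingGroup (Fin p)) :=
    alternatingGroup.isSimpleGroup (by simpa using h5)
  have hA : Group.IsPerfect (⊤ : Subgroup (alternatingGroup (Fin p))) := by
    have : Group.IsPerfect (alternatingGroup (Fin p)) :=
      ⟨commutator_alternatingGroup_eq_top (by simpa using h5)⟩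
    infer_instance
  refine h1.pi_perfect (a := f) hf ⟨1, by rw [pow_one]; exact hfp⟩ i
    (MonoidHom.id _) Function.surjective_id (by simp) hi
    (uniq_of_isCyclic (isCyclic_of_not_sq_dvd (not_sq_dvd_card h5))) hA ?_ (Subgroup.mem_top x)
  rw [closure_orderOf_eq_top (dvd_card h5)]
  exact le_top

/-- The standard element: rotation on the first `j` blocks. -/
def std (a p j : ℕ) (c : alternatingGroup (Fin p)) : Fin a → alternatingGroup (Fin p) :=
  fun i => if (i : ℕ) < j then c else 1

theorem card_support_std (c : alternatingGroup (Fin p)) (hc : ∀ x, (c : Perm (Fin p)) x ≠ x)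
    {j : ℕ} (hj : j ≤ a) :
    (base a p b (std a p j c)).support.card = j * p := by
  have h1 : (base a p b (std a p j c)).support =
      (Finset.univ.filter (fun i : Fin a => (i : ℕ) < j) ×ˢ (Finset.univ : Finset (Fin p))).map
        ⟨Sum.inl, Sum.inl_injective⟩ := by
    ext x
    rcases x with ⟨i, x⟩ | x
    · by_cases h : (i : ℕ) < j
      · simp [std, h, hc x]
      · simp [std, h]
    · simp
  rw [h1, Finset.card_map, Finset.card_product, Finset.card_univ, Fintype.card_fin]
  congr 1
  rw [← Fintype.card_subtype]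
  have e : {i : Fin a // (i : ℕ) < j} ≃ Fin j :=
    { toFun := fun i => ⟨i.1, i.2⟩
      invFun := fun i => ⟨⟨i, lt_of_lt_of_le i.2 hj⟩, i.2⟩
      left_inv := fun i => rfl
      right_inv := fun i => rfl }
  rw [Fintype.card_congr e, Fintype.card_fin]

/-- The rotation as an even permutation. -/
theorem exists_rot [hp : Fact p.Prime] (h5 : 5 ≤ p) :
    ∃ c : alternatingGroup (Fin p), c ^ p = 1 ∧ ∀ x, (c : Perm (Fin p)) x ≠ x := by
  obtain ⟨m, rfl⟩ : ∃ m, p = m + 1 := ⟨p - 1, by omega⟩
  have hcyc : (finRotate (m + 1)).IsCycle := by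
    obtain ⟨k, rfl⟩ : ∃ k, m = k + 1 := ⟨m - 1, by omega⟩
    exact isCycle_finRotate
  have hsupp : (finRotate (m + 1)).support = Finset.univ := by
    obtain ⟨k, rfl⟩ : ∃ k, m = k + 1 := ⟨m - 1, by omega⟩
    exact support_finRotate
  have hodd : Odd (m + 1) := hp.out.odd_of_ne_two (by omega)
  have heven : finRotate (m + 1) ∈ alternatingGroup (Fin (m + 1)) := by
    rw [mem_alternatingGroup, hcyc.sign, hsupp, Finset.card_univ, Fintype.card_fin]
    rw [Odd.neg_one_pow hodd, neg_neg]
  refine ⟨⟨_, heven⟩, ?_, ?_⟩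
  · apply Subtype.ext
    have : orderOf (finRotate (m + 1)) = m + 1 := by
      rw [hcyc.orderOf, hsupp, Finset.card_univ, Fintype.card_fin]
    have h2 := pow_orderOf_eq_one (finRotate (m + 1))
    rw [this] at h2
    simpa using h2
  · intro x
    have : x ∈ (finRotate (m + 1)).support := hsupp ▸ Finset.mem_univ x
    exact Perm.mem_support.mp this

/-- Two permutations of order `p` with supports of the same size are conjugate. -/
theorem isConj_of_order {α : Type*} [Fintype α] [DecidableEq α] [hp : Fact p.Prime]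
    {σ τ : Perm α} (hσ : orderOf σ = p) (hτ : orderOf τ = p)
    (h : σ.support.card = τ.support.card) : IsConj σ τ := by
  rw [isConj_iff_cycleType_eq]
  obtain ⟨n, hn⟩ := cycleType_prime_order (σ := σ) (by rw [hσ]; exact hp.out)
  obtain ⟨m, hm⟩ := cycleType_prime_order (σ := τ) (by rw [hτ]; exact hp.out)
  rw [hσ] at hn
  rw [hτ] at hm
  have h1 := sum_cycleType σ
  have h2 := sum_cycleType τ
  rw [hn, Multiset.sum_replicate, smul_eq_mul] at h1
  rw [hm, Multiset.sum_replicate, smul_eq_mul] at h2
  have h3 : (n + 1) * p = (m + 1) * p := by rw [h1, h2, h]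
  have h4 := Nat.eq_of_mul_eq_mul_right hp.out.pos h3
  rw [hn, hm, h4]

/-- A `PSub p` subgroup of the symmetric group containing an element of order `p ≥ 5` contains a
three-cycle. -/
theorem exists_threeCycle [hp : Fact p.Prime] (h5 : 5 ≤ p) (hb : b < p)
    {K : Subgroup (Perm (Pt a p b))} (hK : PSub p K) {h : Perm (Pt a p b)} (hh : h ∈ K)
    (ho : orderOf h = p) : ∃ t ∈ K, t.IsThreeCycle := by
  obtain ⟨n, hn⟩ := cycleType_prime_order (σ := h) (by rw [ho]; exact hp.out)
  rw [ho] at hn
  have h1 := sum_cycleType h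
  rw [hn, Multiset.sum_replicate, smul_eq_mul] at h1
  have hle : (n + 1) * p ≤ a * p + b := by
    rw [h1]
    refine (Finset.card_le_univ _).trans ?_
    simp [Pt]
  have hna : n + 1 ≤ a := by
    by_contra hcon
    push Not at hcon
    have : (a + 1) * p ≤ (n + 1) * p := Nat.mul_le_mul_right p hcon
    nlinarith
  obtain ⟨c, hcp, hc⟩ := exists_rot (p := p) h5
  set s := base a p b (std a p (n + 1) c) with hs
  have hsp : (std a p (n + 1) c) ^ p = 1 := by
    funext i
    by_cases hi : (i : ℕ) < n + 1
    · simp [std, hi, hcp]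
    · simp [std, hi]
  have hscard : s.support.card = (n + 1) * p := card_support_std c hc hna
  have hs1 : s ≠ 1 := by
    intro h0
    rw [h0, support_one, Finset.card_empty] at hscard
    have h2 := hp.out.pos
    have : 0 < (n + 1) * p := Nat.mul_pos (Nat.succ_pos n) h2
    omega
  have hso : orderOf s = p := by
    apply orderOf_eq_prime _ hs1
    rw [hs, ← map_pow, hsp, map_one]
  have hconj : IsConj h s := isConj_of_order ho hso (by rw [← h1, hscard])
  obtain ⟨g, hg⟩ := isConj_iff.mp hconj
  have hK' := hK.map_equiv (MulAut.conj g)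
  have hsK : s ∈ K.map (MulAut.conj g).toMonoidHom := ⟨h, hh, hg⟩
  let i0 : Fin a := ⟨0, by omega⟩
  have hi0 : std a p (n + 1) c i0 ≠ 1 := by
    have : std a p (n + 1) c i0 = c := by simp [std, i0]
    rw [this]
    intro h0
    exact hc ⟨0, hp.out.pos⟩ (by rw [h0]; rfl)
  -- a three-cycle of `Fin p`
  let x0 : Fin p := ⟨0, by omega⟩
  let x1 : Fin p := ⟨1, by omega⟩
  let x2 : Fin p := ⟨2, by omega⟩
  have h01 : x0 ≠ x1 := by simp [x0, x1]
  have h02 : x0 ≠ x2 := by simp [x0, x2]
  have h12 : x1 ≠ x2 := by simp [x1, x2]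
  have h3 : (swap x0 x1 * swap x0 x2).IsThreeCycle := isThreeCycle_swap_mul_swap_same h01 h02 h12
  have h4 := base_mem h5 hb hK' hsK hsp i0 hi0 ⟨_, h3.mem_alternatingGroup⟩
  obtain ⟨t, ht, htx⟩ := h4
  refine ⟨t, ht, ?_⟩
  have h6 : (base a p b (Pi.mulSingle i0 ⟨_, h3.mem_alternatingGroup⟩)).IsThreeCycle := by
    have e : base a p b (Pi.mulSingle i0 ⟨_, h3.mem_alternatingGroup⟩) =
        swap (Sum.inl (i0, x0)) (Sum.inl (i0, x1)) * swap (Sum.inl (i0, x0)) (Sum.inl (i0, x2)) := by
      have key : ∀ y z : Fin p, block a p b (Pi.mulSingle i0 (swap y z)) =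
          swap (Sum.inl (i0, y)) (Sum.inl (i0, z)) := by
        intro y z
        ext u
        rcases u with ⟨i, u⟩ | u
        · by_cases hi : i = i0
          · subst hi
            rw [block_inl, Pi.mulSingle_eq_same]
            by_cases hy : u = y
            · subst hy; simp
            · by_cases hz : u = z
              · subst hz; simp
              · rw [swap_apply_of_ne_of_ne hy hz, swap_apply_of_ne_of_ne]
                · simpa using hy
                · simpa using hz
          · rw [block_inl, Pi.mulSingle_eq_of_ne hi, swap_apply_of_ne_of_ne]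
            · rfl
            · simp [hi]
            · simp [hi]
        · rw [block_inr, swap_apply_of_ne_of_ne] <;> simp
      rw [← key, ← key, ← map_mul, ← Pi.mulSingle_mul, base_apply]
      congr 1
      funext i
      by_cases hi : i = i0
      · subst hi; simp
      · simp [Pi.mulSingle_eq_of_ne hi]
    rw [e]
    apply isThreeCycle_swap_mul_swap_same
    · simpa using h01
    · simpa using h02
    · simpa using h12
  rw [← htx] at h6
  have h7 : (g * t * g⁻¹).IsThreeCycle := h6
  rw [IsThreeCycle, cycleType_conj] at h7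
  exact h7

end Cfsg.Agent.H146.KW.Alt
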